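import Mathlib
import Cfsg.Prelude.Def_ClassicalGeometry
import Cfsg.Agent.ClassicalGeometry.OrthCharTwo
import Cfsg.Agent.H177.InvolOrth

/-!
# Conjugacy of involutions of `isometryGroup F Q` in characteristic two

`isConj_iff`: two elements of order at most two of the isometry group of a quadratic form with
non-degenerate polar form over a finite field of characteristic two are conjugate iff their residual
spaces have the same dimension and are both totally singular or both not totally singular.
-/

set_option autoImplicit false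
set_option linter.unusedSectionVars false

namespace Cfsg.Agent.H177.InvolGroup

open QuadraticMap Matrix Module
open Cfsg.Agent.ClassicalGeometry.Reflection
open Cfsg.Agent.ClassicalGeometry.OrthCharTwo

variable {ι : Type} [Fintype ι] [DecidableEq ι] {F : Type*} [Field F]

/-- An isometry as an element of `isometryGroup`. -/
theorem exists_iso (Q : (ι → F) → F) (g : (ι → F) ≃ₗ[F] (ι → F)) (hg : ∀ v, Q (g v) = Q v) :
    ∃ h : Cfsg.isometryGroup F Q, ∀ v, act h v = g v := by
  let M : Matrix.GeneralLinearGroup ι F :=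
    ⟨LinearMap.toMatrix' (g : (ι → F) →ₗ[F] (ι → F)),
      LinearMap.toMatrix' (g.symm : (ι → F) →ₗ[F] (ι → F)), by
        rw [← LinearMap.toMatrix'_comp, LinearEquiv.comp_symm, LinearMap.toMatrix'_id], by
        rw [← LinearMap.toMatrix'_comp, LinearEquiv.symm_comp, LinearMap.toMatrix'_id]⟩
  have hM : ∀ v, (M : Matrix ι ι F) *ᵥ v = g v := by
    intro v
    change (LinearMap.toMatrix' (g : (ι → F) →ₗ[F] (ι → F))) *ᵥ v = g v
    rw [← Matrix.toLin'_apply, Matrix.toLin'_toMatrix']
    rfl
  exact ⟨⟨M, (mem_isometryGroup_iff _ _).2 fun x => by rw [hM, hg]⟩, hM⟩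

section

variable {Q : (ι → F) → F}

/-- The linear map `g - 1`. -/
def nMap (g : Cfsg.isometryGroup F Q) : (ι → F) →ₗ[F] (ι → F) where
  toFun x := act g x - x
  map_add' x y := by rw [act_add]; abel
  map_smul' c x := by rw [act_smul, smul_sub]; rfl

theorem nMap_apply (g : Cfsg.isometryGroup F Q) (x : ι → F) : nMap g x = act g x - x := rfl

theorem range_nMap (g : Cfsg.isometryGroup F Q) : LinearMap.range (nMap g) = resSp g := by
  ext x
  rfl

theorem ker_nMap (g : Cfsg.isometryGroup F Q) : LinearMap.ker (nMap g) = fixSp g := by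
  ext x
  rw [LinearMap.mem_ker, nMap_apply, mem_fixSp, sub_eq_zero]

theorem finrank_res_add_fix (g : Cfsg.isometryGroup F Q) :
    finrank F (resSp g) + finrank F (fixSp g) = Fintype.card ι := by
  rw [← range_nMap, ← ker_nMap, LinearMap.finrank_range_add_finrank_ker,
    finrank_fintype_fun_eq_card]

/-- linear equivalence of an isometry -/
def actEquiv (g : Cfsg.isometryGroup F Q) : (ι → F) ≃ₗ[F] (ι → F) where
  toFun x := act g x
  invFun x := act g⁻¹ x
  map_add' x y := act_add g x y
  map_smul' c x := act_smul g c x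
  left_inv x := act_inv_act g x
  right_inv x := act_act_inv g x

theorem actEquiv_apply (g : Cfsg.isometryGroup F Q) (x : ι → F) : actEquiv g x = act g x := rfl

theorem resSp_conj (g h : Cfsg.isometryGroup F Q) :
    resSp (h * g * h⁻¹) = (resSp g).map (actEquiv h : (ι → F) →ₗ[F] (ι → F)) := by
  ext x
  rw [mem_resSp, Submodule.mem_map]
  constructor
  · rintro ⟨y, rfl⟩
    refine ⟨act g (act h⁻¹ y) - act h⁻¹ y, ⟨act h⁻¹ y, rfl⟩, ?_⟩
    rw [LinearEquiv.coe_coe, map_sub, actEquiv_apply, actEquiv_apply, act_mul, act_mul,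
      act_act_inv]
  · rintro ⟨_, ⟨y, rfl⟩, rfl⟩
    refine ⟨act h y, ?_⟩
    rw [LinearEquiv.coe_coe, map_sub, actEquiv_apply, actEquiv_apply, act_mul, act_mul,
      act_inv_act]

theorem finrank_resSp_conj (g h : Cfsg.isometryGroup F Q) :
    finrank F (resSp (h * g * h⁻¹)) = finrank F (resSp g) := by
  rw [resSp_conj]
  exact LinearEquiv.finrank_map_eq (actEquiv h) (resSp g)

/-- `Q` vanishes on the residual space. -/
def Alt (g : Cfsg.isometryGroup F Q) : Prop := ∀ v ∈ resSp g, Q v = 0

theorem alt_conj (g h : Cfsg.isometryGroup F Q) : Alt (h * g * h⁻¹) ↔ Alt g := by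
  unfold Alt
  rw [resSp_conj]
  constructor
  · intro H v hv
    rw [← Q_act h v]
    exact H _ (Submodule.mem_map_of_mem hv)
  · rintro H _ ⟨v, hv, rfl⟩
    rw [LinearEquiv.coe_coe, actEquiv_apply, Q_act (Q := Q)]
    exact H v hv

end

variable (Q : QuadraticForm F (ι → F))

theorem sub_eq_add_two [CharP F 2] (x y : ι → F) : x - y = x + y := by
  funext i
  exact CharTwo.sub_eq_add _ _

theorem nMap_nMap [CharP F 2] (g : Cfsg.isometryGroup F (⇑Q)) (hg : g * g = 1) (x : ι → F) :
    nMap g (nMap g x) = 0 := by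
  rw [nMap_apply, nMap_apply, act_sub, ← act_mul, hg, act_one, sub_eq_add_two, sub_eq_add_two,
    sub_eq_add_two (act g x) x]
  funext i
  simp only [Pi.add_apply, Pi.zero_apply]
  linear_combination (x i + act g x i) * CharTwo.two_eq_zero (R := F)

theorem Q_add_nMap (g : Cfsg.isometryGroup F (⇑Q)) (x : ι → F) : Q (x + nMap g x) = Q x := by
  rw [nMap_apply, add_sub_cancel, Q_act (Q := ⇑Q)]

/-- **Conjugacy criterion for involutions.** -/
theorem isConj_iff_rank_alt [Finite F] [CharP F 2] (hQ : (polarBilin Q).Nondegenerate)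
    (g g' : Cfsg.isometryGroup F (⇑Q)) (hg : g * g = 1) (hg' : g' * g' = 1) :
    IsConj g g' ↔ finrank F (resSp g) = finrank F (resSp g') ∧ (Alt g ↔ Alt g') := by
  rw [isConj_iff]
  constructor
  · rintro ⟨h, rfl⟩
    exact ⟨(finrank_resSp_conj g h).symm, (alt_conj g h).symm⟩
  · rintro ⟨h1, h2⟩
    obtain ⟨e, he, heN⟩ := Cfsg.Agent.H177.InvolOrth.conj_of_rank_type Q hQ (nMap g) (nMap g')
      (nMap_nMap Q g hg) (Q_add_nMap Q g) (nMap_nMap Q g' hg') (Q_add_nMap Q g')
      (by rw [range_nMap, range_nMap, h1]) (by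
        constructor
        · intro H x
          exact h2.1 (by rintro _ ⟨y, rfl⟩; exact H y) _ ⟨x, rfl⟩
        · intro H x
          exact h2.2 (by rintro _ ⟨y, rfl⟩; exact H y) _ ⟨x, rfl⟩)
    obtain ⟨h, hh⟩ := exists_iso (⇑Q) e he
    refine ⟨h, ?_⟩
    rw [mul_inv_eq_iff_eq_mul]
    apply act_ext
    intro x
    have h3 := heN x
    rw [nMap_apply, nMap_apply, map_sub, sub_left_inj] at h3
    rw [act_mul, act_mul, hh, hh, h3]

end Cfsg.Agent.H177.InvolGroup
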