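import Mathlib
import Cfsg.Agent.H177.InvolGroup

/-!
# Existence of involutions of `isometryGroup F Q` in characteristic two, and bounds
-/

set_option autoImplicit false
set_option linter.unusedSectionVars false

namespace Cfsg.Agent.H177.InvolExist

open QuadraticMap Matrix Module
open Cfsg.Agent.ClassicalGeometry.Reflection
open Cfsg.Agent.ClassicalGeometry.OrthCharTwo
open Cfsg.Agent.H177.InvolGroup

variable {ι : Type} [Fintype ι] [DecidableEq ι] {F : Type*} [Field F]
variable (Q : QuadraticForm F (ι → F))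

/-- the Gram map of a family -/
def gramMap {κ : Type*} (v : κ → ι → F) : (ι → F) →ₗ[F] (κ → F) :=
  LinearMap.pi fun j => polarBilin Q (v j)

theorem gramMap_apply {κ : Type*} (v : κ → ι → F) (x : ι → F) (j : κ) :
    gramMap Q v x j = polar Q (v j) x := rfl

theorem gramMap_surjective (hQ : (polarBilin Q).Nondegenerate) {κ : Type*} [Fintype κ]
    (v : κ → ι → F) (hli : LinearIndependent F v) : Function.Surjective (gramMap Q v) := by
  rw [← LinearMap.range_eq_top]
  apply Submodule.eq_top_of_finrank_eq
  have h1 := LinearMap.finrank_range_add_finrank_ker (gramMap Q v)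
  have h2 : LinearMap.ker (gramMap Q v)
      = LinearMap.BilinForm.orthogonal (polarBilin Q) (Submodule.span F (Set.range v)) := by
    ext x
    rw [LinearMap.mem_ker, LinearMap.BilinForm.mem_orthogonal_iff]
    constructor
    · intro h
      have h3 : Submodule.span F (Set.range v) ≤ LinearMap.ker ((polarBilin Q).flip x) := by
        rw [Submodule.span_le]
        rintro _ ⟨j, rfl⟩
        rw [SetLike.mem_coe, LinearMap.mem_ker, LinearMap.flip_apply]
        exact congrFun h j
      intro y hy
      exact h3 hy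
    · intro h
      funext j
      exact h _ (Submodule.subset_span ⟨j, rfl⟩)
  have h3 := LinearMap.BilinForm.finrank_orthogonal hQ (Submodule.span F (Set.range v))
  rw [← h2, finrank_span_eq_card hli] at h3
  have h4 : Fintype.card κ ≤ finrank F (ι → F) := hli.fintype_card_le_finrank
  rw [finrank_fintype_fun_eq_card (R := F) (η := κ)]
  omega

/-- **Construction of involutions**: `N x = Σ_j (C (f(v_i, x))_i)_j v_j`. -/
theorem exists_invol [CharP F 2] (hQ : (polarBilin Q).Nondegenerate) {κ : Type*} [Fintype κ]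
    (v : κ → ι → F) (hli : LinearIndependent F v) (horth : ∀ i j, polar Q (v i) (v j) = 0)
    (C : (κ → F) ≃ₗ[F] (κ → F))
    (hC : ∀ c : κ → F, Q (∑ j, C c j • v j) + ∑ j, C c j * c j = 0) :
    ∃ g : Cfsg.isometryGroup F (⇑Q), g * g = 1 ∧ resSp g = Submodule.span F (Set.range v) := by
  let R : (κ → F) →ₗ[F] (ι → F) := Fintype.linearCombination F v
  have hR : ∀ c, R c = ∑ j, c j • v j := fun c => Fintype.linearCombination_apply F v c
  let N : (ι → F) →ₗ[F] (ι → F) := R ∘ₗ (C : (κ → F) →ₗ[F] (κ → F)) ∘ₗ gramMap Q v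
  have hN : ∀ x, N x = ∑ j, C (gramMap Q v x) j • v j := fun x => hR _
  have hpol : ∀ (x : ι → F) (c : κ → F), polar Q x (∑ j, c j • v j) = ∑ j, c j * polar Q x (v j) := by
    intro x c
    have : polarBilin Q x (∑ j, c j • v j) = ∑ j, c j * polarBilin Q x (v j) := by
      rw [map_sum]
      exact Finset.sum_congr rfl fun j _ => by rw [map_smul, smul_eq_mul]
    exact this
  have hNN : ∀ x, N (N x) = 0 := by
    intro x
    have h1 : gramMap Q v (N x) = 0 := by
      funext i
      rw [gramMap_apply, hN, hpol]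
      exact Finset.sum_eq_zero fun j _ => by rw [horth, mul_zero]
    rw [hN (N x), h1, map_zero]
    simp
  have hQN : ∀ x, Q (x + N x) = Q x := by
    intro x
    rw [map_add', hN, hpol, add_assoc]
    have h1 := hC (gramMap Q v x)
    have h2 : ∑ j, C (gramMap Q v x) j * polar Q x (v j)
        = ∑ j, C (gramMap Q v x) j * gramMap Q v x j :=
      Finset.sum_congr rfl fun j _ => by rw [gramMap_apply, polar_comm]
    rw [h2, h1, add_zero]
  obtain ⟨e, he, hee⟩ := Cfsg.Agent.ClassicalGeometry.WittQuad.exists_equiv Q hQ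
    (LinearMap.id + N) (fun x => hQN x)
  obtain ⟨g, hg⟩ := exists_iso (⇑Q) e he
  have hgx : ∀ x, act g x = x + N x := fun x => by rw [hg, hee]; rfl
  refine ⟨g, ?_, ?_⟩
  · apply act_ext
    intro x
    rw [act_mul, act_one, hgx, hgx, map_add, hNN, add_zero, add_assoc, ← sub_eq_add_two (N x),
      sub_self, add_zero]
  · ext y
    rw [mem_resSp]
    have h1 : Submodule.span F (Set.range v) = LinearMap.range R :=
      (Fintype.range_linearCombination F v).symm
    rw [h1, LinearMap.mem_range]
    constructor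
    · rintro ⟨x, rfl⟩
      refine ⟨C (gramMap Q v x), ?_⟩
      rw [hgx, add_sub_cancel_left]
      rfl
    · rintro ⟨c, rfl⟩
      obtain ⟨x, hx⟩ := gramMap_surjective Q hQ v hli (C.symm c)
      refine ⟨x, ?_⟩
      rw [hgx, add_sub_cancel_left]
      change R (C (gramMap Q v x)) = R c
      rw [hx, LinearEquiv.apply_symm_apply]

theorem Q_sum_of_orth {κ : Type*} [Fintype κ] (v : κ → ι → F)
    (horth : ∀ i j, i ≠ j → polar Q (v i) (v j) = 0) (c : κ → F) :
    Q (∑ j, c j • v j) = ∑ j, c j * c j * Q (v j) := by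
  classical
  rw [QuadraticMap.map_sum]
  have h1 : ∑ ij ∈ (Finset.univ : Finset κ).sym2 with ¬ ij.IsDiag,
      QuadraticMap.polarSym2 Q (ij.map fun i => c i • v i) = 0 := by
    apply Finset.sum_eq_zero
    intro ij hij
    induction ij with
    | _ i j =>
      have hne : i ≠ j := by
        rintro rfl
        simp at hij
      rw [Sym2.map_mk, QuadraticMap.polarSym2_sym2Mk, polar_smul_left, polar_smul_right,
        horth i j hne]
      simp
  rw [h1, add_zero]
  exact Finset.sum_congr rfl fun j _ => by rw [QuadraticMap.map_smul, smul_eq_mul]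

/-- involutions with residual space spanned by orthogonal vectors with `Q = 1` -/
theorem exists_nonalt [CharP F 2] (hQ : (polarBilin Q).Nondegenerate) {κ : Type*} [Fintype κ]
    (v : κ → ι → F) (hli : LinearIndependent F v) (horth : ∀ i j, polar Q (v i) (v j) = 0)
    (hv : ∀ i, Q (v i) = 1) :
    ∃ g : Cfsg.isometryGroup F (⇑Q), g * g = 1 ∧ resSp g = Submodule.span F (Set.range v) := by
  refine exists_invol Q hQ v hli horth (LinearEquiv.refl F _) fun c => ?_
  simp only [LinearEquiv.refl_apply]
  rw [Q_sum_of_orth Q v fun i j _ => horth i j]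
  have h1 : ∑ j, c j * c j * Q (v j) = ∑ j, c j * c j :=
    Finset.sum_congr rfl fun j _ => by rw [hv, mul_one]
  rw [h1, ← two_mul, CharTwo.two_eq_zero, zero_mul]

/-- involutions with totally singular residual space spanned by `2r` vectors -/
theorem exists_alt [CharP F 2] (hQ : (polarBilin Q).Nondegenerate) {κ : Type*} [Fintype κ]
    (v : κ ⊕ κ → ι → F) (hli : LinearIndependent F v) (horth : ∀ i j, polar Q (v i) (v j) = 0)
    (hv : ∀ i, Q (v i) = 0) :
    ∃ g : Cfsg.isometryGroup F (⇑Q), g * g = 1 ∧ resSp g = Submodule.span F (Set.range v) := by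
  refine exists_invol Q hQ v hli horth (LinearEquiv.funCongrLeft F F (Equiv.sumComm κ κ)) fun c => ?_
  rw [Q_sum_of_orth Q v fun i j _ => horth i j]
  rw [Finset.sum_eq_zero fun j _ => by rw [hv, mul_zero], zero_add, Fintype.sum_sum_type]
  simp only [LinearEquiv.funCongrLeft_apply, LinearMap.funLeft_apply, Equiv.sumComm_apply,
    Sum.swap_inl, Sum.swap_inr]
  have h1 : ∑ x, c (Sum.inl x) * c (Sum.inr x) = ∑ x, c (Sum.inr x) * c (Sum.inl x) :=
    Finset.sum_congr rfl fun j _ => mul_comm _ _
  rw [h1, ← two_mul, CharTwo.two_eq_zero, zero_mul]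

end Cfsg.Agent.H177.InvolExist
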