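import Mathlib
import Cfsg.Agent.H177.InvolExist

/-!
# Counting conjugacy classes of involutions of `isometryGroup F Q` in characteristic two
-/

set_option autoImplicit false
set_option linter.unusedSectionVars false

namespace Cfsg.Agent.H177.InvolCount

open QuadraticMap Matrix Module
open Cfsg.Agent.ClassicalGeometry.Reflection
open Cfsg.Agent.ClassicalGeometry.OrthCharTwo
open Cfsg.Agent.H177.InvolGroup
open Cfsg.Agent.H177.InvolExist

/-- Counting classes by representatives. -/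
theorem card_classes_eq {G X : Type*} [Group G] (P : G → Prop) (w : X → G) (hw : ∀ x, P (w x))
    (hinj : ∀ x y, IsConj (w x) (w y) → x = y) (hsurj : ∀ g, P g → ∃ x, IsConj (w x) g) :
    Nat.card {C : ConjClasses G // ∃ g, ConjClasses.mk g = C ∧ P g} = Nat.card X := by
  symm
  apply Nat.card_eq_of_bijective (fun x => (⟨ConjClasses.mk (w x), w x, rfl, hw x⟩ :
    {C : ConjClasses G // ∃ g, ConjClasses.mk g = C ∧ P g}))
  constructor
  · intro x y hxy
    exact hinj x y (ConjClasses.mk_eq_mk_iff_isConj.1 (congrArg Subtype.val hxy))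
  · rintro ⟨_, g, rfl, hg⟩
    obtain ⟨x, hx⟩ := hsurj g hg
    exact ⟨x, Subtype.ext (ConjClasses.mk_eq_mk_iff_isConj.2 hx)⟩

theorem orderOf_eq_two_iff {G : Type*} [Group G] (g : G) :
    orderOf g = 2 ↔ g * g = 1 ∧ g ≠ 1 := by
  haveI : Fact (Nat.Prime 2) := ⟨Nat.prime_two⟩
  rw [orderOf_eq_prime_iff, pow_two]

variable {ι : Type} [Fintype ι] [DecidableEq ι] {F : Type*} [Field F]
variable (Q : QuadraticForm F (ι → F))

theorem resSp_eq_bot_iff {Q : (ι → F) → F} (g : Cfsg.isometryGroup F Q) :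
    resSp g = ⊥ ↔ g = 1 := by
  constructor
  · intro h
    apply act_ext
    intro x
    have h1 : act g x - x ∈ resSp g := ⟨x, rfl⟩
    rw [h, Submodule.mem_bot, sub_eq_zero] at h1
    rw [h1, act_one]
  · rintro rfl
    rw [eq_bot_iff]
    rintro _ ⟨x, rfl⟩
    rw [act_one, sub_self]
    exact Submodule.zero_mem _

theorem finrank_resSp_pos {Q : (ι → F) → F} (g : Cfsg.isometryGroup F Q) :
    0 < finrank F (resSp g) ↔ g ≠ 1 := by
  rw [Ne, ← resSp_eq_bot_iff g, Nat.pos_iff_ne_zero, Ne, Submodule.finrank_eq_zero]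

theorem res_le_fix [CharP F 2] (g : Cfsg.isometryGroup F (⇑Q)) (hg : g * g = 1) :
    resSp g ≤ fixSp g := by
  rw [← range_nMap, ← ker_nMap]
  rintro _ ⟨x, rfl⟩
  exact nMap_nMap Q g hg x

theorem two_mul_finrank_res_le [CharP F 2] (g : Cfsg.isometryGroup F (⇑Q)) (hg : g * g = 1) :
    2 * finrank F (resSp g) ≤ Fintype.card ι := by
  have h1 := finrank_res_add_fix g
  have h2 := Submodule.finrank_mono (res_le_fix Q g hg)
  omega

theorem even_of_alt [CharP F 2] (hQ : (polarBilin Q).Nondegenerate)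
    (g : Cfsg.isometryGroup F (⇑Q)) (hg : g * g = 1) (ha : Alt g) :
    Even (finrank F (resSp g)) := by
  obtain ⟨γ, hγ, h1, hS, h2⟩ := Cfsg.Agent.H177.InvolOrth.exists_gamma Q (nMap g)
    (nMap_nMap Q g hg) (Q_add_nMap Q g) hQ
  have hA : γ.IsAlt := by
    intro m
    rw [h2]
    apply ha
    rw [← range_nMap]
    exact m.2
  obtain ⟨r, b, hr, -⟩ := Cfsg.Agent.H177.InvolOrth.exists_symplectic_basis γ hA hγ
  rw [← range_nMap, hr]
  exact even_two_mul r

theorem alt_of_span {κ : Type*} [Fintype κ] (v : κ → ι → F)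
    (horth : ∀ i j, polar Q (v i) (v j) = 0) (hv : ∀ i, Q (v i) = 0)
    (g : Cfsg.isometryGroup F (⇑Q)) (hg : resSp g = Submodule.span F (Set.range v)) : Alt g := by
  intro x hx
  rw [hg, Submodule.mem_span_range_iff_exists_fun] at hx
  obtain ⟨c, rfl⟩ := hx
  rw [Q_sum_of_orth Q v fun i j _ => horth i j]
  exact Finset.sum_eq_zero fun j _ => by rw [hv, mul_zero]

/-- an involution of rank `s`, not of alternating type -/
theorem exists_nonalt_rank [CharP F 2] (hQ : (polarBilin Q).Nondegenerate) {k : ℕ}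
    (v : Fin k → ι → F) (hli : LinearIndependent F v) (horth : ∀ i j, polar Q (v i) (v j) = 0)
    (hv : ∀ i, Q (v i) = 1) (s : ℕ) (hs : 1 ≤ s) (hsk : s ≤ k) :
    ∃ g : Cfsg.isometryGroup F (⇑Q), g * g = 1 ∧ finrank F (resSp g) = s ∧ ¬ Alt g := by
  have hli' : LinearIndependent F fun i : Fin s => v (Fin.castLE hsk i) :=
    hli.comp _ (Fin.castLE_injective hsk)
  obtain ⟨g, hg, hr⟩ := exists_nonalt Q hQ (fun i : Fin s => v (Fin.castLE hsk i)) hli'
    (fun i j => horth _ _) (fun i => hv _)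
  refine ⟨g, hg, ?_, ?_⟩
  · rw [hr, finrank_span_eq_card hli', Fintype.card_fin]
  · intro ha
    have h1 := ha (v (Fin.castLE hsk ⟨0, hs⟩)) (by
      rw [hr]
      exact Submodule.subset_span ⟨⟨0, hs⟩, rfl⟩)
    rw [hv] at h1
    exact one_ne_zero h1

/-- an involution of rank `2r` of alternating type -/
theorem exists_alt_rank [CharP F 2] (hQ : (polarBilin Q).Nondegenerate) {k : ℕ}
    (v : Fin k → ι → F) (hli : LinearIndependent F v) (horth : ∀ i j, polar Q (v i) (v j) = 0)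
    (hv : ∀ i, Q (v i) = 0) (r : ℕ) (hrk : 2 * r ≤ k) :
    ∃ g : Cfsg.isometryGroup F (⇑Q), g * g = 1 ∧ finrank F (resSp g) = 2 * r ∧ Alt g := by
  let e : Fin r ⊕ Fin r → Fin k := fun x => Fin.castLE hrk (Fin.cast (by omega) (finSumFinEquiv x))
  have he : Function.Injective e := by
    intro x y hxy
    have h1 := Fin.castLE_injective hrk hxy
    have h2 := Fin.cast_injective _ h1
    exact finSumFinEquiv.injective h2
  have hli' : LinearIndependent F fun i => v (e i) := hli.comp _ he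
  obtain ⟨g, hg, hr⟩ := exists_alt Q hQ (fun i => v (e i)) hli'
    (fun i j => horth _ _) (fun i => hv _)
  refine ⟨g, hg, ?_, ?_⟩
  · rw [hr, finrank_span_eq_card hli', Fintype.card_sum, Fintype.card_fin, two_mul]
  · exact alt_of_span Q (fun i => v (e i)) (fun i j => horth _ _) (fun i => hv _) g hr

/-- **Counting the classes of involutions of the full orthogonal group**: `k` = number of ranks of
non-alternating type, `l` = number of (even) ranks of alternating type. -/
theorem card_classes_O [Finite F] [CharP F 2] (hQ : (polarBilin Q).Nondegenerate) (k l : ℕ)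
    (h1 : ∀ s, 1 ≤ s → s ≤ k →
      ∃ g : Cfsg.isometryGroup F (⇑Q), g * g = 1 ∧ finrank F (resSp g) = s ∧ ¬ Alt g)
    (h2 : ∀ r, 1 ≤ r → r ≤ l →
      ∃ g : Cfsg.isometryGroup F (⇑Q), g * g = 1 ∧ finrank F (resSp g) = 2 * r ∧ Alt g)
    (h3 : ∀ g : Cfsg.isometryGroup F (⇑Q), g * g = 1 → finrank F (resSp g) ≤ k)
    (h4 : ∀ g : Cfsg.isometryGroup F (⇑Q), g * g = 1 → Alt g → finrank F (resSp g) ≤ 2 * l) :
    Nat.card {C : ConjClasses ↥(Cfsg.isometryGroup F (⇑Q)) //
      ∃ g : ↥(Cfsg.isometryGroup F (⇑Q)), ConjClasses.mk g = C ∧ orderOf g = 2} = k + l := by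
  have h1' : ∀ i : Fin k, ∃ g : Cfsg.isometryGroup F (⇑Q),
      g * g = 1 ∧ finrank F (resSp g) = i.1 + 1 ∧ ¬ Alt g :=
    fun i => h1 (i.1 + 1) (by omega) (by omega)
  have h2' : ∀ i : Fin l, ∃ g : Cfsg.isometryGroup F (⇑Q),
      g * g = 1 ∧ finrank F (resSp g) = 2 * (i.1 + 1) ∧ Alt g :=
    fun i => h2 (i.1 + 1) (by omega) (by omega)
  choose a ha1 ha2 ha3 using h1'
  choose b hb1 hb2 hb3 using h2'
  rw [card_classes_eq (fun g : Cfsg.isometryGroup F (⇑Q) => orderOf g = 2) (Sum.elim a b)]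
  · rw [Nat.card_sum, Nat.card_fin, Nat.card_fin]
  · rintro (i | i)
    · rw [Sum.elim_inl, orderOf_eq_two_iff, ← finrank_resSp_pos]
      exact ⟨ha1 i, by rw [ha2]; omega⟩
    · rw [Sum.elim_inr, orderOf_eq_two_iff, ← finrank_resSp_pos]
      exact ⟨hb1 i, by rw [hb2]; omega⟩
  · rintro (i | i) (j | j) hij
    · rw [Sum.elim_inl, Sum.elim_inl, isConj_iff_rank_alt Q hQ _ _ (ha1 i) (ha1 j), ha2, ha2] at hij
      congr 1
      apply Fin.ext
      omega
    · rw [Sum.elim_inl, Sum.elim_inr, isConj_iff_rank_alt Q hQ _ _ (ha1 i) (hb1 j)] at hij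
      exact absurd (hij.2.2 (hb3 j)) (ha3 i)
    · rw [Sum.elim_inr, Sum.elim_inl, isConj_iff_rank_alt Q hQ _ _ (hb1 i) (ha1 j)] at hij
      exact absurd (hij.2.1 (hb3 i)) (ha3 j)
    · rw [Sum.elim_inr, Sum.elim_inr, isConj_iff_rank_alt Q hQ _ _ (hb1 i) (hb1 j), hb2, hb2] at hij
      congr 1
      apply Fin.ext
      omega
  · intro g hg
    rw [orderOf_eq_two_iff, ← finrank_resSp_pos] at hg
    obtain ⟨hg1, hg2⟩ := hg
    by_cases hA : Alt g
    · obtain ⟨r, hr⟩ := even_of_alt Q hQ g hg1 hA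
      have h5 := h4 g hg1 hA
      refine ⟨Sum.inr ⟨r - 1, by omega⟩, ?_⟩
      rw [Sum.elim_inr, isConj_iff_rank_alt Q hQ _ _ (hb1 _) hg1]
      refine ⟨?_, fun _ => hA, fun _ => hb3 _⟩
      rw [hb2, hr]
      simp only
      omega
    · have h5 := h3 g hg1
      refine ⟨Sum.inl ⟨finrank F (resSp g) - 1, by omega⟩, ?_⟩
      rw [Sum.elim_inl, isConj_iff_rank_alt Q hQ _ _ (ha1 _) hg1]
      refine ⟨?_, fun h => absurd h (ha3 _), fun h => absurd h hA⟩
      rw [ha2]
      simp only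
      omega

end Cfsg.Agent.H177.InvolCount
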