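import Mathlib
import Cfsg.Agent.H177.InvolCount
import Cfsg.Agent.LieClassical.OrthForms

/-!
# The forms `quadFormPlus`, `quadFormMinus` in characteristic two: families of vectors, Witt index
-/

set_option autoImplicit false
set_option linter.unusedSectionVars false

namespace Cfsg.Agent.H177.InvolForms

open QuadraticMap Matrix Module
open Cfsg.Agent.ClassicalGeometry.Reflection
open Cfsg.Agent.ClassicalGeometry.OrthCharTwo
open Cfsg.Agent.H177.InvolGroup
open Cfsg.Agent.H177.InvolExist
open Cfsg.Agent.H177.InvolCount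
open Cfsg.Agent.LieClassical.OrthForms

variable {ι : Type} [Fintype ι] [DecidableEq ι] {F : Type*} [Field F]

theorem nondegenerate_of_nondeg (Q : QuadraticForm F (ι → F))
    (h : ∀ x : ι → F, (∀ y : ι → F, polar Q x y = 0) → x = 0) : (polarBilin Q).Nondegenerate :=
  ⟨h, fun x hx => h x fun y => by rw [polar_comm]; exact hx y⟩

/-! ### plus type -/

theorem plus_nondegenerate (m : ℕ) (F : Type*) [Field F] :
    (polarBilin (plusForm m F)).Nondegenerate :=
  nondegenerate_of_nondeg _ (nondeg_plusForm m F)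

/-- the singular vectors `x_i` -/
def px (m : ℕ) (F : Type*) [Field F] (i : Fin m) : Fin m ⊕ Fin m → F := Pi.single (Sum.inl i) 1

/-- the vectors `x_i + y_i` -/
def pxy (m : ℕ) (F : Type*) [Field F] (i : Fin m) : Fin m ⊕ Fin m → F :=
  Pi.single (Sum.inl i) 1 + Pi.single (Sum.inr i) 1

theorem linearIndependent_px (m : ℕ) : LinearIndependent F (px m F) := by
  rw [Fintype.linearIndependent_iff]
  intro c hc i
  have h1 := congrFun hc (Sum.inl i)
  simpa [px, Finset.sum_apply, Pi.single_apply] using h1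

theorem linearIndependent_pxy (m : ℕ) : LinearIndependent F (pxy m F) := by
  rw [Fintype.linearIndependent_iff]
  intro c hc i
  have h1 := congrFun hc (Sum.inl i)
  simpa [pxy, Finset.sum_apply, Pi.single_apply] using h1

theorem polar_px (m : ℕ) (i j : Fin m) : polar (plusForm m F) (px m F i) (px m F j) = 0 := by
  rw [polar_plusForm]
  simp [px]

theorem Q_px (m : ℕ) (i : Fin m) : plusForm m F (px m F i) = 0 := by
  rw [coe_plusForm, quadFormPlus_apply]
  simp [px]

theorem polar_pxy [CharP F 2] (m : ℕ) (i j : Fin m) :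
    polar (plusForm m F) (pxy m F i) (pxy m F j) = 0 := by
  rw [polar_plusForm]
  apply Finset.sum_eq_zero
  intro x _
  simp only [pxy, Pi.add_apply, Pi.single_apply, Sum.inl.injEq, Sum.inr.injEq, reduceCtorEq,
    if_false, add_zero, zero_add]
  rw [mul_comm (if x = j then (1 : F) else 0)]
  exact CharTwo.add_self_eq_zero _

theorem Q_pxy (m : ℕ) (i : Fin m) : plusForm m F (pxy m F i) = 1 := by
  rw [coe_plusForm, quadFormPlus_apply]
  simp [pxy, Pi.single_apply]

/-- **The number of classes of involutions of `O⁺_2m(q)`, `q` even.** -/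
theorem card_classes_plus [Finite F] [CharP F 2] (m : ℕ) :
    Nat.card {C : ConjClasses ↥(Cfsg.isometryGroup F (⇑(plusForm m F))) //
      ∃ g : ↥(Cfsg.isometryGroup F (⇑(plusForm m F))), ConjClasses.mk g = C ∧ orderOf g = 2}
      = m + m / 2 := by
  have hQ := plus_nondegenerate m F
  have hb : ∀ g : Cfsg.isometryGroup F (⇑(plusForm m F)), g * g = 1 →
      finrank F (resSp g) ≤ m := by
    intro g hg
    have h1 := two_mul_finrank_res_le _ g hg
    rw [Fintype.card_sum, Fintype.card_fin] at h1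
    omega
  refine card_classes_O (plusForm m F) hQ m (m / 2) ?_ ?_ hb ?_
  · intro s hs hsm
    exact exists_nonalt_rank _ hQ (pxy m F) (linearIndependent_pxy m) (polar_pxy m) (Q_pxy m) s hs hsm
  · intro r hr hrm
    exact exists_alt_rank _ hQ (px m F) (linearIndependent_px m) (polar_px m) (Q_px m) r (by omega)
  · intro g hg ha
    have h1 := hb g hg
    obtain ⟨r, hr⟩ := even_of_alt _ hQ g hg ha
    omega

/-! ### minus type -/

section Minus

variable (a b : F) (hab : ∀ z₁ z₂ : F, z₁ ^ 2 + a * z₁ * z₂ + b * z₂ ^ 2 = 0 → z₁ = 0 ∧ z₂ = 0)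

theorem minus_nondegenerate [Finite F] (k : ℕ)
    (hab : ∀ z₁ z₂ : F, z₁ ^ 2 + a * z₁ * z₂ + b * z₂ ^ 2 = 0 → z₁ = 0 ∧ z₂ = 0) :
    (polarBilin (minusForm k F a b)).Nondegenerate :=
  nondegenerate_of_nondeg _ (nondeg_minusForm k F a b hab)

/-- the singular vectors `x_i` -/
def mx (k : ℕ) (F : Type*) [Field F] (i : Fin k) : (Fin k ⊕ Fin k) ⊕ Fin 2 → F :=
  Pi.single (Sum.inl (Sum.inl i)) 1

/-- the vectors `x_i + y_i` and `z` -/
def mxy (k : ℕ) (F : Type*) [Field F] (i : Fin (k + 1)) : (Fin k ⊕ Fin k) ⊕ Fin 2 → F :=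
  Fin.lastCases (Pi.single (Sum.inr 0) 1)
    (fun i => Pi.single (Sum.inl (Sum.inl i)) 1 + Pi.single (Sum.inl (Sum.inr i)) 1) i

theorem mxy_last (k : ℕ) : mxy k F (Fin.last k) = Pi.single (Sum.inr 0) 1 := by
  rw [mxy, Fin.lastCases_last]

theorem mxy_castSucc (k : ℕ) (i : Fin k) : mxy k F i.castSucc
    = Pi.single (Sum.inl (Sum.inl i)) 1 + Pi.single (Sum.inl (Sum.inr i)) 1 := by
  rw [mxy, Fin.lastCases_castSucc]

theorem linearIndependent_mx (k : ℕ) : LinearIndependent F (mx k F) := by
  rw [Fintype.linearIndependent_iff]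
  intro c hc i
  have h1 := congrFun hc (Sum.inl (Sum.inl i))
  simpa [mx, Finset.sum_apply, Pi.single_apply] using h1

theorem linearIndependent_mxy (k : ℕ) : LinearIndependent F (mxy k F) := by
  rw [Fintype.linearIndependent_iff]
  intro c hc
  rw [Fin.sum_univ_castSucc] at hc
  intro i
  refine Fin.lastCases ?_ (fun i => ?_) i
  · have h1 := congrFun hc (Sum.inr 0)
    simpa [mxy_last, mxy_castSucc, Finset.sum_apply, Pi.single_apply] using h1
  · have h1 := congrFun hc (Sum.inl (Sum.inl i))
    simpa [mxy_last, mxy_castSucc, Finset.sum_apply, Pi.single_apply] using h1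

theorem polar_mx (k : ℕ) (i j : Fin k) : polar (minusForm k F a b) (mx k F i) (mx k F j) = 0 := by
  rw [polar_minusForm]
  simp [mx]

theorem Q_mx (k : ℕ) (i : Fin k) : minusForm k F a b (mx k F i) = 0 := by
  rw [coe_minusForm, quadFormMinus_apply]
  simp [mx]

theorem polar_mxy [CharP F 2] (k : ℕ) (i j : Fin (k + 1)) :
    polar (minusForm k F a b) (mxy k F i) (mxy k F j) = 0 := by
  have h2 : (2 : F) = 0 := CharTwo.two_eq_zero
  rw [polar_minusForm]
  refine Fin.lastCases ?_ (fun i => ?_) i <;> refine Fin.lastCases ?_ (fun j => ?_) j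
  · simp [mxy_last, h2]
  · simp [mxy_last, mxy_castSucc, h2]
  · simp [mxy_last, mxy_castSucc, h2]
  · simp only [mxy_castSucc, Pi.add_apply, Pi.single_apply, Sum.inl.injEq, Sum.inr.injEq,
      reduceCtorEq, if_false, add_zero, zero_add, mul_zero]
    apply Finset.sum_eq_zero
    intro x _
    rw [mul_comm (if x = j then (1 : F) else 0)]
    exact CharTwo.add_self_eq_zero _

theorem Q_mxy (k : ℕ) (i : Fin (k + 1)) : minusForm k F a b (mxy k F i) = 1 := by
  rw [coe_minusForm, quadFormMinus_apply]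
  refine Fin.lastCases ?_ (fun i => ?_) i
  · simp [mxy_last]
  · simp [mxy_castSucc, Pi.single_apply]

/-- Totally singular subspaces of the minus-type form have dimension at most `k`. -/
theorem finrank_le_of_singular [Finite F] (k : ℕ)
    (hab : ∀ z₁ z₂ : F, z₁ ^ 2 + a * z₁ * z₂ + b * z₂ ^ 2 = 0 → z₁ = 0 ∧ z₂ = 0)
    (M : Submodule F ((Fin k ⊕ Fin k) ⊕ Fin 2 → F)) (hM : ∀ v ∈ M, minusForm k F a b v = 0) :
    finrank F M ≤ k := by
  by_contra hcon
  push Not at hcon
  have hpol : ∀ u ∈ M, ∀ v ∈ M, polar (minusForm k F a b) u v = 0 := by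
    intro u hu v hv
    rw [polar, hM _ (M.add_mem hu hv), hM u hu, hM v hv]
    ring
  -- `k + 1` linearly independent vectors of `M`
  obtain ⟨c, hc⟩ : ∃ c : Fin (k + 1) → M, LinearIndependent F c := by
    have := (finBasis F M).linearIndependent
    exact ⟨fun i => finBasis F M (Fin.castLE hcon i), this.comp _ (Fin.castLE_injective hcon)⟩
  have hc' : LinearIndependent F fun i => (c i : (Fin k ⊕ Fin k) ⊕ Fin 2 → F) :=
    hc.map' M.subtype (Submodule.ker_subtype M)
  obtain ⟨g, hg, hgx⟩ := Cfsg.Agent.ClassicalGeometry.WittQuad.extend_family (minusForm k F a b)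
    (minus_nondegenerate a b k hab) k (fun i => (c i.castSucc : (Fin k ⊕ Fin k) ⊕ Fin 2 → F))
    (mx k F) (hc'.comp _ (Fin.castSucc_injective k)) (linearIndependent_mx k)
    (fun i => by rw [hM _ (c i.castSucc).2, Q_mx])
    (fun i j => by
      change polar _ _ _ = polar _ _ _
      rw [hpol _ (c i.castSucc).2 _ (c j.castSucc).2, polar_mx])
  set u := g (c (Fin.last k) : (Fin k ⊕ Fin k) ⊕ Fin 2 → F) with hu
  have hu0 : minusForm k F a b u = 0 := by rw [hu, hg, hM _ (c (Fin.last k)).2]
  have hup : ∀ i, u (.inl (.inr i)) = 0 := by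
    intro i
    have h1 : polar (minusForm k F a b) (mx k F i) u = 0 := by
      have h2 := Cfsg.Agent.ClassicalGeometry.WittQuad.polar_map (minusForm k F a b) g (map_add g) hg
        (c i.castSucc) (c (Fin.last k))
      rw [← hu, hgx] at h2
      exact h2.trans (hpol _ (c i.castSucc).2 _ (c (Fin.last k)).2)
    rw [polar_minusForm] at h1
    simpa [mx, Pi.single_apply] using h1
  have hz : u (.inr 0) = 0 ∧ u (.inr 1) = 0 := by
    apply hab
    rw [coe_minusForm, quadFormMinus_apply,
      Finset.sum_eq_zero fun i _ => by rw [hup, mul_zero], zero_add] at hu0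
    exact hu0
  have hsum : u = ∑ i, u (.inl (.inl i)) • mx k F i := by
    funext x
    rcases x with (x | x) | x
    · simp [mx, Finset.sum_apply, Pi.single_apply]
    · simp [mx, Finset.sum_apply, hup]
    · fin_cases x
      · simp [mx, Finset.sum_apply, hz.1]
      · simp [mx, Finset.sum_apply, hz.2]
  have h3 : (c (Fin.last k) : (Fin k ⊕ Fin k) ⊕ Fin 2 → F)
      = ∑ i, u (.inl (.inl i)) • (c i.castSucc : (Fin k ⊕ Fin k) ⊕ Fin 2 → F) := by
    apply g.injective
    rw [← hu, map_sum]
    simp only [map_smul, hgx]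
    exact hsum
  have h4 := Fintype.linearIndependent_iff.1 hc'
    (Fin.lastCases (-1) fun i => u (.inl (.inl i))) (by
      rw [Fin.sum_univ_castSucc]
      simp only [Fin.lastCases_castSucc, Fin.lastCases_last]
      rw [← h3, neg_smul, one_smul, add_neg_cancel]) (Fin.last k)
  rw [Fin.lastCases_last] at h4
  exact one_ne_zero (neg_eq_zero.1 h4)

/-- **The number of classes of involutions of `O⁻_2m(q)`, `q` even.** -/
theorem card_classes_minus [Finite F] [CharP F 2] (k : ℕ)
    (hab : ∀ z₁ z₂ : F, z₁ ^ 2 + a * z₁ * z₂ + b * z₂ ^ 2 = 0 → z₁ = 0 ∧ z₂ = 0) :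
    Nat.card {C : ConjClasses ↥(Cfsg.isometryGroup F (⇑(minusForm k F a b))) //
      ∃ g : ↥(Cfsg.isometryGroup F (⇑(minusForm k F a b))), ConjClasses.mk g = C ∧ orderOf g = 2}
      = (k + 1) + k / 2 := by
  have hQ := minus_nondegenerate a b k hab
  have hb : ∀ g : Cfsg.isometryGroup F (⇑(minusForm k F a b)), g * g = 1 →
      finrank F (resSp g) ≤ k + 1 := by
    intro g hg
    have h1 := two_mul_finrank_res_le _ g hg
    simp only [Fintype.card_sum, Fintype.card_fin] at h1
    omega
  refine card_classes_O (minusForm k F a b) hQ (k + 1) (k / 2) ?_ ?_ hb ?_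
  · intro s hs hsm
    exact exists_nonalt_rank _ hQ (mxy k F) (linearIndependent_mxy k) (polar_mxy a b k)
      (Q_mxy a b k) s hs hsm
  · intro r hr hrm
    exact exists_alt_rank _ hQ (mx k F) (linearIndependent_mx k) (polar_mx a b k) (Q_mx a b k) r
      (by omega)
  · intro g hg ha
    have h1 := finrank_le_of_singular a b k hab (resSp g) ha
    obtain ⟨r, hr⟩ := even_of_alt _ hQ g hg ha
    omega

end Minus

end Cfsg.Agent.H177.InvolForms
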