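import Mathlib
import Cfsg.Agent.H177.OmegaSign
import Cfsg.Agent.H177.InvolForms
import Cfsg.Agent.ClassicalGeometry.TwoFamilies

/-!
# Conjugacy classes of involutions of `Ω` in characteristic two
-/

set_option autoImplicit false
set_option linter.unusedSectionVars false

namespace Cfsg.Agent.H177.OmegaClasses

open QuadraticMap Matrix Module
open Cfsg.Agent.ClassicalGeometry.Reflection
open Cfsg.Agent.ClassicalGeometry.OrthCharTwo
open Cfsg.Agent.ClassicalGeometry.OrthDickson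
open Cfsg.Agent.H177.InvolGroup
open Cfsg.Agent.H177.InvolExist
open Cfsg.Agent.H177.InvolCount
open Cfsg.Agent.H177.OmegaSign

variable {ι : Type} [Fintype ι] [DecidableEq ι] {F : Type*} [Field F]
variable (Q : QuadraticForm F (ι → F))

theorem dsign_eq_one_iff (g : Cfsg.isometryGroup F (⇑Q)) :
    dsign Q g = 1 ↔ Even (finrank F (resSp g)) := by
  have h1 := finrank_res_add_fix g
  rw [dsign_def, neg_one_pow_eq_one_iff_even (by decide)]
  rw [← h1, Nat.even_add, Nat.even_add]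
  tauto

/-- if there is no fixed non-singular vector then the type is alternating and the rank is half the
dimension -/
theorem exists_fixed [CharP F 2] (hQ : (polarBilin Q).Nondegenerate)
    (g : Cfsg.isometryGroup F (⇑Q)) (hg : g * g = 1)
    (h : ¬ Alt g ∨ 2 * finrank F (resSp g) < Fintype.card ι) : ∃ v ∈ fixSp g, Q v ≠ 0 := by
  by_contra hcon
  push Not at hcon
  rcases h with h | h
  · exact h fun v hv => hcon v (res_le_fix Q g hg hv)
  · have h1 := finrank_res_add_fix g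
    have h2 : fixSp g ≤ resSp g := by
      intro x hx
      rw [mem_resSp_iff_forall Q hQ]
      intro y hy
      rw [polar, hcon _ ((fixSp g).add_mem hx hy), hcon x hx, hcon y hy]
      ring
    have h3 := Submodule.finrank_mono h2
    omega

/-- adjusting the conjugating element by a reflection in a fixed vector -/
theorem adjust (hQ : (polarBilin Q).Nondegenerate)
    (g g' h : Cfsg.isometryGroup F (⇑Q)) (hc : h * g * h⁻¹ = g')
    (hv : ∃ v ∈ fixSp g, Q v ≠ 0) : ∃ k : Cfsg.isometryGroup F (⇑Q), dsign Q k = 1 ∧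
      k * g * k⁻¹ = g' := by
  by_cases hs : dsign Q h = 1
  · exact ⟨h, hs, hc⟩
  obtain ⟨v, hv1, hv2⟩ := hv
  have hv3 : Q (act h v) ≠ 0 := by rw [Q_act (Q := ⇑Q)]; exact hv2
  have h1 : h * reflIso Q v hv2 = reflIso Q (act h v) hv3 * h := by
    rw [← mul_inv_eq_iff_eq_mul]
    exact conj_reflIso Q v hv2 h hv3
  have h2 : reflIso Q v hv2 * g * (reflIso Q v hv2)⁻¹ = g := by
    have hv4 : Q (act g v) ≠ 0 := by rw [Q_act (Q := ⇑Q)]; exact hv2
    have h3 := conj_reflIso Q v hv2 g hv4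
    have h4 : reflIso Q (act g v) hv4 = reflIso Q v hv2 := by
      congr 1
    have h5 : g * reflIso Q v hv2 * g⁻¹ = reflIso Q v hv2 := h3.trans h4
    rw [mul_inv_eq_iff_eq_mul] at h5
    rw [mul_inv_eq_iff_eq_mul, h5]
  refine ⟨h * reflIso Q v hv2, ?_, ?_⟩
  · rw [h1, dsign_refl_mul Q hQ, neg_eq_iff_eq_neg]
    rcases Int.units_eq_one_or (dsign Q h) with h3 | h3
    · exact absurd h3 hs
    · exact h3
  · rw [← hc]
    calc h * reflIso Q v hv2 * g * (h * reflIso Q v hv2)⁻¹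
        = h * (reflIso Q v hv2 * g * (reflIso Q v hv2)⁻¹) * h⁻¹ := by group
      _ = h * g * h⁻¹ := by rw [h2]

/-- conjugacy in `Ω` of elements with a fixed non-singular vector -/
theorem isConj_Omega_iff (hQ : (polarBilin Q).Nondegenerate)
    (hΩ : ∀ g : Cfsg.isometryGroup F (⇑Q),
      g ∈ commutator (Cfsg.isometryGroup F (⇑Q)) ↔ dsign Q g = 1)
    (g g' : ↥(Cfsg.Omega F (⇑Q))) (hv : ∃ v ∈ fixSp (g : Cfsg.isometryGroup F (⇑Q)), Q v ≠ 0) :
    IsConj g g' ↔ IsConj (g : Cfsg.isometryGroup F (⇑Q)) (g' : Cfsg.isometryGroup F (⇑Q)) := by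
  rw [isConj_iff, isConj_iff]
  constructor
  · rintro ⟨c, hc⟩
    exact ⟨c, congrArg Subtype.val hc⟩
  · rintro ⟨c, hc⟩
    obtain ⟨k, hk1, hk2⟩ := adjust Q hQ _ _ c hc hv
    exact ⟨⟨k, (hΩ k).2 hk1⟩, Subtype.ext hk2⟩

theorem even_rank (hΩ : ∀ g : Cfsg.isometryGroup F (⇑Q),
      g ∈ commutator (Cfsg.isometryGroup F (⇑Q)) ↔ dsign Q g = 1)
    (g : Cfsg.isometryGroup F (⇑Q)) :
    g ∈ Cfsg.Omega F (⇑Q) ↔ Even (finrank F (resSp g)) := by
  rw [← dsign_eq_one_iff]
  exact hΩ g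

/-- **Classes of involutions of `Ω`, without splitting.** -/
theorem card_classes_Omega [Finite F] [CharP F 2] (hQ : (polarBilin Q).Nondegenerate)
    (hΩ : ∀ g : Cfsg.isometryGroup F (⇑Q),
      g ∈ commutator (Cfsg.isometryGroup F (⇑Q)) ↔ dsign Q g = 1) (k l : ℕ)
    (h1 : ∀ r, 1 ≤ r → r ≤ k →
      ∃ g : Cfsg.isometryGroup F (⇑Q), g * g = 1 ∧ finrank F (resSp g) = 2 * r ∧ ¬ Alt g)
    (h2 : ∀ r, 1 ≤ r → r ≤ l →
      ∃ g : Cfsg.isometryGroup F (⇑Q), g * g = 1 ∧ finrank F (resSp g) = 2 * r ∧ Alt g)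
    (h3 : ∀ g : Cfsg.isometryGroup F (⇑Q), g * g = 1 → finrank F (resSp g) ≤ 2 * k + 1)
    (h4 : ∀ g : Cfsg.isometryGroup F (⇑Q), g * g = 1 → Alt g → finrank F (resSp g) ≤ 2 * l)
    (h5 : ∀ g : Cfsg.isometryGroup F (⇑Q), g * g = 1 → Alt g →
      2 * finrank F (resSp g) < Fintype.card ι) :
    Nat.card {C : ConjClasses ↥(Cfsg.Omega F (⇑Q)) //
      ∃ g : ↥(Cfsg.Omega F (⇑Q)), ConjClasses.mk g = C ∧ orderOf g = 2} = k + l := by
  have hfix : ∀ g : Cfsg.isometryGroup F (⇑Q), g * g = 1 → ∃ v ∈ fixSp g, Q v ≠ 0 := by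
    intro g hg
    apply exists_fixed Q hQ g hg
    by_cases hA : Alt g
    · exact Or.inr (h5 g hg hA)
    · exact Or.inl hA
  have hord : ∀ g : ↥(Cfsg.Omega F (⇑Q)), orderOf g = 2 ↔
      (g : Cfsg.isometryGroup F (⇑Q)) * g = 1 ∧
        0 < finrank F (resSp (g : Cfsg.isometryGroup F (⇑Q))) := by
    intro g
    rw [← Subgroup.orderOf_coe, Cfsg.Agent.H177.InvolCount.orderOf_eq_two_iff, finrank_resSp_pos]
  have hconj : ∀ g g' : ↥(Cfsg.Omega F (⇑Q)), (g : Cfsg.isometryGroup F (⇑Q)) * g = 1 →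
      (g' : Cfsg.isometryGroup F (⇑Q)) * g' = 1 → (IsConj g g' ↔
      finrank F (resSp (g : Cfsg.isometryGroup F (⇑Q)))
        = finrank F (resSp (g' : Cfsg.isometryGroup F (⇑Q))) ∧
      (Alt (g : Cfsg.isometryGroup F (⇑Q)) ↔ Alt (g' : Cfsg.isometryGroup F (⇑Q)))) := by
    intro g g' hg hg'
    rw [isConj_Omega_iff Q hQ hΩ g g' (hfix _ hg), isConj_iff_rank_alt Q hQ _ _ hg hg']
  have h1' : ∀ i : Fin k, ∃ g : ↥(Cfsg.Omega F (⇑Q)),
      (g : Cfsg.isometryGroup F (⇑Q)) * g = 1 ∧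
      finrank F (resSp (g : Cfsg.isometryGroup F (⇑Q))) = 2 * (i.1 + 1) ∧
      ¬ Alt (g : Cfsg.isometryGroup F (⇑Q)) := by
    intro i
    obtain ⟨g, hg1, hg2, hg3⟩ := h1 (i.1 + 1) (by omega) (by omega)
    exact ⟨⟨g, (even_rank Q hΩ g).2 (by rw [hg2]; exact even_two_mul _)⟩, hg1, hg2, hg3⟩
  have h2' : ∀ i : Fin l, ∃ g : ↥(Cfsg.Omega F (⇑Q)),
      (g : Cfsg.isometryGroup F (⇑Q)) * g = 1 ∧
      finrank F (resSp (g : Cfsg.isometryGroup F (⇑Q))) = 2 * (i.1 + 1) ∧
      Alt (g : Cfsg.isometryGroup F (⇑Q)) := by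
    intro i
    obtain ⟨g, hg1, hg2, hg3⟩ := h2 (i.1 + 1) (by omega) (by omega)
    exact ⟨⟨g, (even_rank Q hΩ g).2 (by rw [hg2]; exact even_two_mul _)⟩, hg1, hg2, hg3⟩
  choose a ha1 ha2 ha3 using h1'
  choose b hb1 hb2 hb3 using h2'
  rw [card_classes_eq (fun g : ↥(Cfsg.Omega F (⇑Q)) => orderOf g = 2) (Sum.elim a b)]
  · rw [Nat.card_sum, Nat.card_fin, Nat.card_fin]
  · rintro (i | i)
    · rw [Sum.elim_inl, hord]
      exact ⟨ha1 i, by rw [ha2]; omega⟩
    · rw [Sum.elim_inr, hord]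
      exact ⟨hb1 i, by rw [hb2]; omega⟩
  · rintro (i | i) (j | j) hij
    · rw [Sum.elim_inl, Sum.elim_inl, hconj _ _ (ha1 i) (ha1 j), ha2, ha2] at hij
      congr 1
      apply Fin.ext
      omega
    · rw [Sum.elim_inl, Sum.elim_inr, hconj _ _ (ha1 i) (hb1 j)] at hij
      exact absurd (hij.2.2 (hb3 j)) (ha3 i)
    · rw [Sum.elim_inr, Sum.elim_inl, hconj _ _ (hb1 i) (ha1 j)] at hij
      exact absurd (hij.2.1 (hb3 i)) (ha3 j)
    · rw [Sum.elim_inr, Sum.elim_inr, hconj _ _ (hb1 i) (hb1 j), hb2, hb2] at hij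
      congr 1
      apply Fin.ext
      omega
  · intro g hg
    rw [hord] at hg
    obtain ⟨hg1, hg2⟩ := hg
    obtain ⟨r, hr⟩ := (even_rank Q hΩ g).1 g.2
    by_cases hA : Alt (g : Cfsg.isometryGroup F (⇑Q))
    · have h5 := h4 g hg1 hA
      refine ⟨Sum.inr ⟨r - 1, by omega⟩, ?_⟩
      rw [Sum.elim_inr, hconj _ _ (hb1 _) hg1]
      refine ⟨?_, fun _ => hA, fun _ => hb3 _⟩
      rw [hb2, hr]
      simp only
      omega
    · have h5 := h3 g hg1
      refine ⟨Sum.inl ⟨r - 1, by omega⟩, ?_⟩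
      rw [Sum.elim_inl, hconj _ _ (ha1 _) hg1]
      refine ⟨?_, fun h => absurd h (ha3 _), fun h => absurd h hA⟩
      rw [ha2, hr]
      simp only
      omega

/-! ### Splitting: the classes with maximal totally singular residual space -/

theorem finrank_inf_refl (hQ : (polarBilin Q).Nondegenerate) {m : ℕ} (hm : Fintype.card ι = 2 * m)
    (X : Submodule F (ι → F)) (hX : finrank F X = m) (hX0 : ∀ x ∈ X, Q x = 0)
    (v : ι → F) (hv : Q v ≠ 0) :
    finrank F ↥(X ⊓ X.map (actEquiv (reflIso Q v hv) : (ι → F) →ₗ[F] (ι → F))) + 1 = m := by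
  have hpol : ∀ u ∈ X, ∀ v ∈ X, polar Q u v = 0 := by
    intro u hu v hv
    rw [polar, hX0 _ (X.add_mem hu hv), hX0 u hu, hX0 v hv]
    ring
  have horth : LinearMap.BilinForm.orthogonal (polarBilin Q) X = X := by
    symm
    apply Submodule.eq_of_le_of_finrank_eq
    · intro y hy z hz
      exact hpol z hz y hy
    · rw [LinearMap.BilinForm.finrank_orthogonal hQ, finrank_fintype_fun_eq_card, hm, hX]
      omega
  have hvX : v ∉ X := fun h => hv (hX0 v h)
  have h1 : X ⊓ X.map (actEquiv (reflIso Q v hv) : (ι → F) →ₗ[F] (ι → F))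
      = X ⊓ LinearMap.ker (polarBilin Q v) := by
    ext x
    rw [Submodule.mem_inf, Submodule.mem_inf, LinearMap.mem_ker, polarBilin_apply_apply]
    constructor
    · rintro ⟨hx, ⟨y, hy, hyx⟩⟩
      rw [LinearEquiv.coe_coe, actEquiv_apply, act_refl] at hyx
      refine ⟨hx, ?_⟩
      have h2 : ((Q v)⁻¹ * polar Q v y) • v ∈ X := by
        have : ((Q v)⁻¹ * polar Q v y) • v = y - x := by rw [← hyx]; abel
        rw [this]
        exact X.sub_mem hy hx
      have h3 : (Q v)⁻¹ * polar Q v y = 0 := by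
        by_contra hne
        apply hvX
        have := X.smul_mem ((Q v)⁻¹ * polar Q v y)⁻¹ h2
        rwa [smul_smul, inv_mul_cancel₀ hne, one_smul] at this
      rw [h3, zero_smul, sub_zero] at hyx
      rw [← hyx]
      exact (mul_eq_zero.1 h3).resolve_left (inv_ne_zero hv)
    · rintro ⟨hx, hx2⟩
      exact ⟨hx, x, hx, by
        rw [LinearEquiv.coe_coe, actEquiv_apply, act_refl_of_polar Q v hv x hx2]⟩
  have h2 : ((polarBilin Q v).domRestrict X) ≠ 0 := by
    intro h0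
    apply hvX
    rw [← horth]
    intro x hx
    have := LinearMap.congr_fun h0 ⟨x, hx⟩
    change polar Q v x = 0 at this
    change polar Q x v = 0
    rw [polar_comm, this]
  have h3 := Module.Dual.finrank_ker_add_one_of_ne_zero h2
  have h4 : (LinearMap.ker ((polarBilin Q v).domRestrict X)).map X.subtype
      = X ⊓ LinearMap.ker (polarBilin Q v) := by
    rw [LinearMap.domRestrict, LinearMap.ker_comp, Submodule.map_comap_subtype]
  rw [h1, ← h4, Submodule.finrank_map_subtype_eq, h3, hX]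

/-- **The Dickson sign and maximal totally singular subspaces.** -/
theorem dsign_eq_one_iff_inf (hQ : (polarBilin Q).Nondegenerate) (hG : Gen Q) {m : ℕ}
    (hm : Fintype.card ι = 2 * m) (M : Submodule F (ι → F)) (hM : finrank F M = m)
    (hM0 : ∀ x ∈ M, Q x = 0) (g : Cfsg.isometryGroup F (⇑Q)) :
    dsign Q g = 1 ↔
      Even (finrank F ↥(M ⊓ M.map (actEquiv g : (ι → F) →ₗ[F] (ι → F))) + m) := by
  revert g
  refine hG _ ?_ ?_
  · have h1 : M.map (actEquiv (1 : Cfsg.isometryGroup F (⇑Q)) : (ι → F) →ₗ[F] (ι → F)) = M := by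
      ext x
      constructor
      · rintro ⟨y, hy, rfl⟩
        rw [LinearEquiv.coe_coe, actEquiv_apply, act_one]
        exact hy
      · intro hx
        exact ⟨x, hx, by rw [LinearEquiv.coe_coe, actEquiv_apply, act_one]⟩
    rw [h1, inf_idem, hM, dsign_one]
    exact iff_of_true rfl ⟨m, rfl⟩
  · intro v hv g hg
    set X := M.map (actEquiv g : (ι → F) →ₗ[F] (ι → F)) with hXdef
    have hX : finrank F X = m := by
      rw [hXdef, ← hM]
      exact LinearEquiv.finrank_map_eq (actEquiv g) M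
    have hX0 : ∀ x ∈ X, Q x = 0 := by
      rintro _ ⟨y, hy, rfl⟩
      rw [LinearEquiv.coe_coe, actEquiv_apply, Q_act (Q := ⇑Q)]
      exact hM0 y hy
    have hYeq : M.map (actEquiv (reflIso Q v hv * g) : (ι → F) →ₗ[F] (ι → F))
        = X.map (actEquiv (reflIso Q v hv) : (ι → F) →ₗ[F] (ι → F)) := by
      rw [hXdef, ← Submodule.map_comp]
      congr 1
      apply LinearMap.ext
      intro x
      exact act_mul _ _ x
    rw [hYeq]
    set Y := X.map (actEquiv (reflIso Q v hv) : (ι → F) →ₗ[F] (ι → F)) with hYdef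
    have hY : finrank F Y = m := by
      rw [hYdef, ← hX]
      exact LinearEquiv.finrank_map_eq (actEquiv (reflIso Q v hv)) X
    have hY0 : ∀ x ∈ Y, Q x = 0 := by
      rintro _ ⟨y, hy, rfl⟩
      rw [LinearEquiv.coe_coe, actEquiv_apply, Q_act (Q := ⇑Q)]
      exact hX0 y hy
    have h1 := finrank_inf_refl Q hQ hm X hX hX0 v hv
    rw [← hYdef] at h1
    have h2 := Cfsg.Agent.ClassicalGeometry.TwoFamilies.even_intersections (polarBilin Q) (⇑Q)
      (fun u w => by rw [map_add', polarBilin_apply_apply]) hQ (polarBilin_isRefl Q) m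
      (by rw [finrank_fintype_fun_eq_card, hm]) M X Y hM hX hY hM0 hX0 hY0
    rw [dsign_refl_mul Q hQ]
    have h3 : -dsign Q g = 1 ↔ ¬ dsign Q g = 1 := by
      rcases Int.units_eq_one_or (dsign Q g) with h | h
      · rw [h]; decide
      · rw [h]; decide
    rw [h3, hg]
    rw [Nat.even_iff] at h2 ⊢
    rw [Nat.even_iff]
    omega

/-- **Classes of involutions of `Ω` in dimension `4 l`, plus type** (one class splits). -/
theorem card_classes_Omega_split [Finite F] [CharP F 2] (hQ : (polarBilin Q).Nondegenerate)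
    (hG : Gen Q)
    (hΩ : ∀ g : Cfsg.isometryGroup F (⇑Q),
      g ∈ commutator (Cfsg.isometryGroup F (⇑Q)) ↔ dsign Q g = 1) (l : ℕ) (hl : 1 ≤ l)
    (hcard : Fintype.card ι = 2 * (2 * l)) (hns : ∃ v, Q v ≠ 0)
    (h1 : ∀ r, 1 ≤ r → r ≤ l →
      ∃ g : Cfsg.isometryGroup F (⇑Q), g * g = 1 ∧ finrank F (resSp g) = 2 * r ∧ ¬ Alt g)
    (h2 : ∀ r, 1 ≤ r → r ≤ l →
      ∃ g : Cfsg.isometryGroup F (⇑Q), g * g = 1 ∧ finrank F (resSp g) = 2 * r ∧ Alt g) :
    Nat.card {C : ConjClasses ↥(Cfsg.Omega F (⇑Q)) //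
      ∃ g : ↥(Cfsg.Omega F (⇑Q)), ConjClasses.mk g = C ∧ orderOf g = 2} = 2 * l + 1 := by
  have hord : ∀ g : ↥(Cfsg.Omega F (⇑Q)), orderOf g = 2 ↔
      (g : Cfsg.isometryGroup F (⇑Q)) * g = 1 ∧
        0 < finrank F (resSp (g : Cfsg.isometryGroup F (⇑Q))) := by
    intro g
    rw [← Subgroup.orderOf_coe, Cfsg.Agent.H177.InvolCount.orderOf_eq_two_iff, finrank_resSp_pos]
  have hconjO : ∀ g g' : ↥(Cfsg.Omega F (⇑Q)), (g : Cfsg.isometryGroup F (⇑Q)) * g = 1 →
      (g' : Cfsg.isometryGroup F (⇑Q)) * g' = 1 → IsConj g g' →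
      finrank F (resSp (g : Cfsg.isometryGroup F (⇑Q)))
        = finrank F (resSp (g' : Cfsg.isometryGroup F (⇑Q))) ∧
      (Alt (g : Cfsg.isometryGroup F (⇑Q)) ↔ Alt (g' : Cfsg.isometryGroup F (⇑Q))) := by
    intro g g' hg hg' h
    rw [isConj_iff] at h
    obtain ⟨c, hc⟩ := h
    rw [← isConj_iff_rank_alt Q hQ _ _ hg hg', isConj_iff]
    exact ⟨c, congrArg Subtype.val hc⟩
  have hconj : ∀ g g' : ↥(Cfsg.Omega F (⇑Q)), (g : Cfsg.isometryGroup F (⇑Q)) * g = 1 →
      (g' : Cfsg.isometryGroup F (⇑Q)) * g' = 1 →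
      (¬ Alt (g : Cfsg.isometryGroup F (⇑Q)) ∨
        2 * finrank F (resSp (g : Cfsg.isometryGroup F (⇑Q))) < Fintype.card ι) →
      finrank F (resSp (g : Cfsg.isometryGroup F (⇑Q)))
        = finrank F (resSp (g' : Cfsg.isometryGroup F (⇑Q))) ∧
      (Alt (g : Cfsg.isometryGroup F (⇑Q)) ↔ Alt (g' : Cfsg.isometryGroup F (⇑Q))) →
      IsConj g g' := by
    intro g g' hg hg' hf h
    rw [isConj_Omega_iff Q hQ hΩ g g' (exists_fixed Q hQ _ hg hf),
      isConj_iff_rank_alt Q hQ _ _ hg hg']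
    exact h
  have h1' : ∀ i : Fin l, ∃ g : ↥(Cfsg.Omega F (⇑Q)),
      (g : Cfsg.isometryGroup F (⇑Q)) * g = 1 ∧
      finrank F (resSp (g : Cfsg.isometryGroup F (⇑Q))) = 2 * (i.1 + 1) ∧
      ¬ Alt (g : Cfsg.isometryGroup F (⇑Q)) := by
    intro i
    obtain ⟨g, hg1, hg2, hg3⟩ := h1 (i.1 + 1) (by omega) (by omega)
    exact ⟨⟨g, (even_rank Q hΩ g).2 (by rw [hg2]; exact even_two_mul _)⟩, hg1, hg2, hg3⟩
  have h2' : ∀ i : Fin l, ∃ g : ↥(Cfsg.Omega F (⇑Q)),
      (g : Cfsg.isometryGroup F (⇑Q)) * g = 1 ∧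
      finrank F (resSp (g : Cfsg.isometryGroup F (⇑Q))) = 2 * (i.1 + 1) ∧
      Alt (g : Cfsg.isometryGroup F (⇑Q)) := by
    intro i
    obtain ⟨g, hg1, hg2, hg3⟩ := h2 (i.1 + 1) (by omega) (by omega)
    exact ⟨⟨g, (even_rank Q hΩ g).2 (by rw [hg2]; exact even_two_mul _)⟩, hg1, hg2, hg3⟩
  choose a ha1 ha2 ha3 using h1'
  choose b hb1 hb2 hb3 using h2'
  obtain ⟨v, hv⟩ := hns
  set r := reflIso Q v hv with hr
  have hr1 : dsign Q r = -1 := dsign_refl Q hQ v hv
  -- the last alternating representative and its conjugate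
  let il : Fin l := ⟨l - 1, by omega⟩
  set t := (b il : Cfsg.isometryGroup F (⇑Q)) with ht
  have htt : t * t = 1 := hb1 il
  have htr : finrank F (resSp t) = 2 * l := by
    rw [ht, hb2]
    simp only [il]
    omega
  have hcc : (r * t * r⁻¹) * (r * t * r⁻¹) = 1 := by
    calc (r * t * r⁻¹) * (r * t * r⁻¹) = r * (t * t) * r⁻¹ := by group
      _ = 1 := by rw [htt]; group
  have hcr : finrank F (resSp (r * t * r⁻¹)) = 2 * l := by rw [finrank_resSp_conj, htr]
  let c : ↥(Cfsg.Omega F (⇑Q)) := ⟨r * t * r⁻¹, (even_rank Q hΩ _).2 (by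
    rw [hcr]; exact even_two_mul l)⟩
  have hcA : Alt (r * t * r⁻¹) := (alt_conj t r).2 (hb3 il)
  -- `c` and `b il` are not conjugate in `Ω`
  have hnc : ¬ IsConj (b il) c := by
    rw [isConj_iff]
    rintro ⟨k, hk⟩
    have hk' : (k : Cfsg.isometryGroup F (⇑Q)) * t * (k : Cfsg.isometryGroup F (⇑Q))⁻¹
        = r * t * r⁻¹ := congrArg Subtype.val hk
    have h3 : (resSp t).map (actEquiv (k : Cfsg.isometryGroup F (⇑Q)) : (ι → F) →ₗ[F] (ι → F))
        = (resSp t).map (actEquiv r : (ι → F) →ₗ[F] (ι → F)) := by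
      rw [← resSp_conj, ← resSp_conj, hk']
    have h4 := dsign_eq_one_iff_inf Q hQ hG hcard (resSp t) htr (hb3 il)
      (k : Cfsg.isometryGroup F (⇑Q))
    have h5 := dsign_eq_one_iff_inf Q hQ hG hcard (resSp t) htr (hb3 il) r
    rw [h3, ← h5, hr1] at h4
    exact absurd (h4.1 ((hΩ _).1 k.2)) (by decide)
  rw [card_classes_eq (fun g : ↥(Cfsg.Omega F (⇑Q)) => orderOf g = 2)
    (Sum.elim (Sum.elim a b) (fun _ : Fin 1 => c))]
  · rw [Nat.card_sum, Nat.card_sum, Nat.card_fin, Nat.card_fin, two_mul]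
  · rintro ((i | i) | i)
    · rw [Sum.elim_inl, Sum.elim_inl, hord]
      exact ⟨ha1 i, by rw [ha2]; omega⟩
    · rw [Sum.elim_inl, Sum.elim_inr, hord]
      exact ⟨hb1 i, by rw [hb2]; omega⟩
    · rw [Sum.elim_inr, hord]
      exact ⟨hcc, by
        change 0 < finrank F (resSp (r * t * r⁻¹))
        rw [hcr]; omega⟩
  · have hbc : ∀ i : Fin l, ¬ IsConj (b i) c := by
      intro i hi
      have h3 := (hconjO _ _ (hb1 i) hcc hi).1
      rw [hb2] at h3
      change _ = finrank F (resSp (r * t * r⁻¹)) at h3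
      rw [hcr] at h3
      have h4 : i = il := Fin.ext (by simp only [il]; omega)
      rw [h4] at hi
      exact hnc hi
    rintro ((i | i) | i) ((j | j) | j) hij
    · have := hconjO _ _ (ha1 i) (ha1 j) hij
      rw [ha2, ha2] at this
      congr 2
      apply Fin.ext
      omega
    · have := hconjO _ _ (ha1 i) (hb1 j) hij
      exact absurd (this.2.2 (hb3 j)) (ha3 i)
    · have := hconjO _ _ (ha1 i) hcc hij
      exact absurd (this.2.2 hcA) (ha3 i)
    · have := hconjO _ _ (hb1 i) (ha1 j) hij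
      exact absurd (this.2.1 (hb3 i)) (ha3 j)
    · have := hconjO _ _ (hb1 i) (hb1 j) hij
      rw [hb2, hb2] at this
      congr 2
      apply Fin.ext
      omega
    · exact absurd hij (hbc i)
    · have := hconjO _ _ hcc (ha1 j) hij
      exact absurd (this.2.1 hcA) (ha3 j)
    · exact absurd hij.symm (hbc j)
    · congr 1
      exact Subsingleton.elim _ _
  · intro g hg
    rw [hord] at hg
    obtain ⟨hg1, hg2⟩ := hg
    obtain ⟨s, hs⟩ := (even_rank Q hΩ g).1 g.2
    have hle := two_mul_finrank_res_le Q (g : Cfsg.isometryGroup F (⇑Q)) hg1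
    rw [hcard] at hle
    by_cases hA : Alt (g : Cfsg.isometryGroup F (⇑Q))
    · by_cases hsl : s = l
      · -- the splitting class
        have h3 : IsConj t (g : Cfsg.isometryGroup F (⇑Q)) := by
          rw [isConj_iff_rank_alt Q hQ _ _ htt hg1, htr, hs]
          exact ⟨by omega, fun _ => hA, fun _ => hb3 il⟩
        rw [isConj_iff] at h3
        obtain ⟨h, hh⟩ := h3
        by_cases hsg : dsign Q h = 1
        · refine ⟨Sum.inl (Sum.inr il), ?_⟩
          rw [Sum.elim_inl, Sum.elim_inr, isConj_iff]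
          exact ⟨⟨h, (hΩ h).2 hsg⟩, Subtype.ext hh⟩
        · refine ⟨Sum.inr 0, ?_⟩
          rw [Sum.elim_inr, isConj_iff]
          have hsg' : dsign Q (h * r⁻¹) = 1 := by
            rw [dsign_mul_of_Gen Q hQ hG, hr, reflIso_inv, ← hr, hr1]
            rcases Int.units_eq_one_or (dsign Q h) with h3 | h3
            · exact absurd h3 hsg
            · rw [h3]; decide
          refine ⟨⟨h * r⁻¹, (hΩ _).2 hsg'⟩, Subtype.ext ?_⟩
          change h * r⁻¹ * (r * t * r⁻¹) * (h * r⁻¹)⁻¹ = g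
          rw [← hh]
          group
      · refine ⟨Sum.inl (Sum.inr ⟨s - 1, by omega⟩), ?_⟩
        rw [Sum.elim_inl, Sum.elim_inr]
        refine hconj _ _ (hb1 _) hg1 (Or.inr ?_) ⟨?_, fun _ => hA, fun _ => hb3 _⟩
        · rw [hb2, hcard]
          simp only
          omega
        · rw [hb2, hs]
          simp only
          omega
    · refine ⟨Sum.inl (Sum.inl ⟨s - 1, by omega⟩), ?_⟩
      rw [Sum.elim_inl, Sum.elim_inl]
      refine hconj _ _ (ha1 _) hg1 (Or.inl (ha3 _))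
        ⟨?_, fun h => absurd h (ha3 _), fun h => absurd h hA⟩
      rw [ha2, hs]
      simp only
      omega

/-! ### The two families of groups -/

section Families

open Cfsg.Agent.H177.InvolForms
open Cfsg.Agent.LieClassical.OrthForms

/-- **The number of classes of involutions of `Ω⁺_2m(q)`, `q` even.** -/
theorem card_classes_Omega_plus (F : Type*) [Field F] [Fintype F] [CharP F 2] (m : ℕ) (hm : 1 ≤ m)
    (h : Fintype.card F ≠ 2 ∨ m ≠ 2) :
    Nat.card {C : ConjClasses ↥(Cfsg.Omega F (⇑(plusForm m F))) //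
      ∃ g : ↥(Cfsg.Omega F (⇑(plusForm m F))), ConjClasses.mk g = C ∧ orderOf g = 2}
      = 2 * (m / 2) + (if Even m then 1 else 0) := by
  have hQ := plus_nondegenerate m F
  have hgood : (∃ θ : F, θ ≠ 0 ∧ θ ≠ 1) ∨ Fintype.card (Fin m ⊕ Fin m) ≠ 4 := by
    rcases h with h | h
    · exact Or.inl (exists_ne_zero_ne_one h)
    · right
      rw [Fintype.card_sum, Fintype.card_fin]
      omega
  have hG := gen_of_good (plusForm m F) hQ hgood
  have hΩ := mem_commutator_iff_good (plusForm m F) hQ hgood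
  have hcard : Fintype.card (Fin m ⊕ Fin m) = 2 * m := by
    rw [Fintype.card_sum, Fintype.card_fin, two_mul]
  have hb : ∀ g : Cfsg.isometryGroup F (⇑(plusForm m F)), g * g = 1 →
      finrank F (resSp g) ≤ m := by
    intro g hg
    have h1 := two_mul_finrank_res_le _ g hg
    rw [hcard] at h1
    omega
  have h1 : ∀ r, 1 ≤ r → r ≤ m / 2 → ∃ g : Cfsg.isometryGroup F (⇑(plusForm m F)),
      g * g = 1 ∧ finrank F (resSp g) = 2 * r ∧ ¬ Alt g := fun r hr hrm =>
    exists_nonalt_rank _ hQ (pxy m F) (linearIndependent_pxy m) (polar_pxy m) (Q_pxy m) (2 * r)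
      (by omega) (by omega)
  have h2 : ∀ r, 1 ≤ r → r ≤ m / 2 → ∃ g : Cfsg.isometryGroup F (⇑(plusForm m F)),
      g * g = 1 ∧ finrank F (resSp g) = 2 * r ∧ Alt g := fun r hr hrm =>
    exists_alt_rank _ hQ (px m F) (linearIndependent_px m) (polar_px m) (Q_px m) r (by omega)
  by_cases hev : Even m
  · rw [if_pos hev]
    obtain ⟨l, hl⟩ := hev
    have hl2 : m / 2 = l := by omega
    rw [hl2] at h1 h2 ⊢
    refine card_classes_Omega_split (plusForm m F) hQ hG hΩ l (by omega) (by rw [hcard]; omega)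
      ⟨pxy m F ⟨0, hm⟩, by rw [Q_pxy]; exact one_ne_zero⟩ h1 h2
  · rw [if_neg hev, add_zero, two_mul]
    have hodd : m % 2 = 1 := by
      rw [Nat.even_iff] at hev
      omega
    refine card_classes_Omega (plusForm m F) hQ hΩ (m / 2) (m / 2) h1 h2 ?_ ?_ ?_
    · intro g hg
      have := hb g hg
      omega
    · intro g hg ha
      have := hb g hg
      obtain ⟨r, hr⟩ := even_of_alt _ hQ g hg ha
      omega
    · intro g hg ha
      have := hb g hg
      obtain ⟨r, hr⟩ := even_of_alt _ hQ g hg ha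
      rw [hcard]
      omega

/-- **The number of classes of involutions of `Ω⁻_2m(q)`, `q` even.** -/
theorem card_classes_Omega_minus (F : Type*) [Field F] [Finite F] [CharP F 2] (k : ℕ) (a b : F)
    (hab : ∀ z₁ z₂ : F, z₁ ^ 2 + a * z₁ * z₂ + b * z₂ ^ 2 = 0 → z₁ = 0 ∧ z₂ = 0) :
    Nat.card {C : ConjClasses ↥(Cfsg.Omega F (⇑(minusForm k F a b))) //
      ∃ g : ↥(Cfsg.Omega F (⇑(minusForm k F a b))), ConjClasses.mk g = C ∧ orderOf g = 2}
      = (k + 1) / 2 + k / 2 := by
  have hQ := minus_nondegenerate a b k hab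
  have hcard : Fintype.card ((Fin k ⊕ Fin k) ⊕ Fin 2) = 2 * (k + 1) := by
    simp only [Fintype.card_sum, Fintype.card_fin]
    omega
  have hb : ∀ g : Cfsg.isometryGroup F (⇑(minusForm k F a b)), g * g = 1 →
      finrank F (resSp g) ≤ k + 1 := by
    intro g hg
    have h1 := two_mul_finrank_res_le _ g hg
    rw [hcard] at h1
    omega
  have hΩ : ∀ g : Cfsg.isometryGroup F (⇑(minusForm k F a b)),
      g ∈ commutator (Cfsg.isometryGroup F (⇑(minusForm k F a b))) ↔
        dsign (minusForm k F a b) g = 1 := by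
    by_cases hk : k = 1
    · refine mem_commutator_iff_index_one (minusForm k F a b) hQ ?_
      intro u v hu hv huv
      by_contra hcon
      push Not at hcon
      have hli : LinearIndependent F ![u, v] := by
        rw [LinearIndependent.pair_iff]
        intro s t hst
        exact hcon s t hst
      have h1 := finrank_le_of_singular a b k hab (Submodule.span F (Set.range ![u, v])) (by
        intro x hx
        rw [Submodule.mem_span_range_iff_exists_fun] at hx
        obtain ⟨c, rfl⟩ := hx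
        rw [Fin.sum_univ_two, map_add', QuadraticMap.map_smul, QuadraticMap.map_smul,
          polar_smul_left, polar_smul_right]
        simp [hu, hv, huv])
      rw [finrank_span_eq_card hli, Fintype.card_fin] at h1
      omega
    · exact mem_commutator_iff_good (minusForm k F a b) hQ (Or.inr (by rw [hcard]; omega))
  refine card_classes_Omega (minusForm k F a b) hQ hΩ ((k + 1) / 2) (k / 2) ?_ ?_ ?_ ?_ ?_
  · intro r hr hrm
    exact exists_nonalt_rank _ hQ (mxy k F) (linearIndependent_mxy k) (polar_mxy a b k)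
      (Q_mxy a b k) (2 * r) (by omega) (by omega)
  · intro r hr hrm
    exact exists_alt_rank _ hQ (mx k F) (linearIndependent_mx k) (polar_mx a b k) (Q_mx a b k) r
      (by omega)
  · intro g hg
    have := hb g hg
    omega
  · intro g hg ha
    have h1 := finrank_le_of_singular a b k hab (resSp g) ha
    obtain ⟨r, hr⟩ := even_of_alt _ hQ g hg ha
    omega
  · intro g hg ha
    have h1 := finrank_le_of_singular a b k hab (resSp g) ha
    rw [hcard]
    omega

end Families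

end Cfsg.Agent.H177.OmegaClasses
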